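import Groth.Agent.Sga2lef.H96.ModSysRec
import Groth.Agent.Divis.IdealComap
import Groth.Agent.CohqA.AffPush

/-!
# Systems of modules on the completion along `V(J O_X)` and formal systems for the ideal `J` of the base ring

`X` over `Spec A`, `J : Ideal A`, `𝓘 : X.IdealSheafData` generated by `J` (`IsGenBy J 𝓘`).
* `killedByIdeal_iff_killedBy`, `isKQuot_iff_isModPow`;
* `isCohFormal_toSys`, `isFormal_toSys`: `toSys 𝔐` is a formal system;
* `nonempty_iso_iff`: `completionMod 𝓘 F ≅ 𝔐` iff `Formal.completion J F ≅ toSys 𝔐`;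
* `isGenBy_comap`: `(Spec.map mk).ker.comap (X ↘ Spec A)` is generated by `J`.
-/

set_option autoImplicit false
universe u

open CategoryTheory AlgebraicGeometry Opposite

namespace Groth.Agent.Sga2lef.H96.ModSysFormal

open AlgebraicGeometry.Scheme.Modules FSch
open Groth.Agent.FormalB.KQuot Groth.Agent.FormalB.TrKQuot Groth.Agent.FormalB.ModPow
open Groth.Agent.Sga2lef.H96.ModSysPush Groth.Agent.Sga2lef.H96.ModSysRec

variable {A : Type u} [CommRing A] {X : Scheme.{u}} [X.Over (Spec (CommRingCat.of A))]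

variable (A X) in
/-- The scalars `A → Γ(X, U)`. -/
noncomputable def sc (U : X.Opens) : A →+* Γ(X, U) :=
  (resΓ X U).comp (Coh.toGlobal (X ↘ Spec (CommRingCat.of A)))

theorem sc_smul (M : X.Modules) (a : A) (U : X.Opens) (m : Γ(M, U)) :
    (Formal.smulMod A M a).app U m = sc A X U a • m := rfl

/-- `𝓘 = J O_X`. -/
def IsGenBy (J : Ideal A) (𝓘 : X.IdealSheafData) : Prop :=
  ∀ V : X.affineOpens, 𝓘.ideal V = J.map (sc A X V.1)

variable {J : Ideal A} {𝓘 : X.IdealSheafData}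

theorem IsGenBy.pow (h : IsGenBy J 𝓘) (n : ℕ) : IsGenBy (J ^ n) (𝓘 ^ n) := fun V => by
  rw [Scheme.IdealSheafData.ideal_pow, Pi.pow_apply, h V, Ideal.map_pow]

theorem IsGenBy.killedByIdeal (h : IsGenBy J 𝓘) {M : X.Modules} (hM : Formal.KilledBy J M) :
    ClSub.KilledByIdeal 𝓘 M := by
  rw [killedByIdeal_iff]
  intro U a ha m
  rw [h U] at ha
  refine Submodule.span_induction (p := fun a _ => a • m = 0) ?_ (zero_smul _ _) ?_ ?_ ha
  · rintro _ ⟨b, hb, rfl⟩
    have h1 : (Formal.smulMod A M b).app U.1 m = 0 := by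
      rw [hM b hb]
      rfl
    exact h1
  · intro x y _ _ hx hy
    rw [add_smul, hx, hy, add_zero]
  · intro r x _ hx
    rw [smul_eq_mul, mul_smul, hx, smul_zero]

theorem IsGenBy.killedBy (h : IsGenBy J 𝓘) {M : X.Modules} (hM : ClSub.KilledByIdeal 𝓘 M) :
    Formal.KilledBy J M := by
  intro a ha
  apply Groth.Agent.FormalB.SysSect.hom_eq_zero_of_affine
  intro U hU m
  rw [sc_smul]
  refine killedByIdeal_iff.1 hM ⟨U, hU⟩ _ ?_ m
  rw [h ⟨U, hU⟩]
  exact Ideal.mem_map_of_mem _ ha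

theorem IsGenBy.killedByIdeal_iff_killedBy (h : IsGenBy J 𝓘) {M : X.Modules} :
    ClSub.KilledByIdeal 𝓘 M ↔ Formal.KilledBy J M := ⟨h.killedBy, h.killedByIdeal⟩

theorem IsGenBy.isKQuot (h : IsGenBy J 𝓘) {M N : X.Modules} {p : M ⟶ N} (hp : IsModPow J p) :
    IsKQuot 𝓘 p := by
  refine ⟨hp.epi, h.killedByIdeal hp.killedBy, fun {Z} φ hZ => hp.desc φ fun a ha => ?_⟩
  rw [smulMod_naturality, h.killedBy hZ a ha, Limits.comp_zero]

theorem IsGenBy.isModPow (h : IsGenBy J 𝓘) {M N : X.Modules} {p : M ⟶ N} (hp : IsKQuot 𝓘 p) :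
    IsModPow J p := by
  refine ⟨hp.epi, fun a ha => ?_, fun {Z} φ hφ => ?_⟩
  · rw [smulMod_naturality, h.killedBy hp.killed a ha, Limits.comp_zero]
  · have hk : Formal.KilledBy J (Limits.image φ) := by
      intro a ha
      rw [← cancel_epi (Limits.factorThruImage φ), ← smulMod_naturality,
        ← cancel_mono (Limits.image.ι φ), Category.assoc, Limits.image.fac, hφ a ha,
        Limits.comp_zero, Limits.zero_comp]
    obtain ⟨ψ, hψ⟩ := hp.desc (Limits.factorThruImage φ) (h.killedByIdeal hk)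
    exact ⟨ψ ≫ Limits.image.ι φ, by rw [← Category.assoc, hψ, Limits.image.fac]⟩

theorem IsGenBy.isKQuot_iff_isModPow (h : IsGenBy J 𝓘) {M N : X.Modules} {p : M ⟶ N} :
    IsKQuot 𝓘 p ↔ IsModPow J p := ⟨h.isModPow, h.isKQuot⟩

section Sys

variable (h : IsGenBy J 𝓘) (𝔐 : ModSys (completionAlong X 𝓘))

include h in
theorem isModPow_ptr (n : ℕ) : IsModPow (J ^ (n + 1)) (ptr 𝔐 n) :=
  (h.pow (n + 1)).isModPow (isKQuot_ptr 𝔐 n)

include h in
theorem isFormal_toSys : IsFormal J (toSys 𝔐) where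
  killed n := (h.pow (n + 1)).killedBy (killed_pm 𝔐 n)
  succ n := by
    rw [toSys_map_succ]
    exact isModPow_ptr h 𝔐 n

/-- coherence of the direct images. -/
theorem isCoh_pm (n : ℕ) (hn : Coh.IsCoh (𝔐.F n)) : Coh.IsCoh (pm 𝔐 n) :=
  ⟨CohqA.AffPush.isQCoh_push (𝓘 ^ (n + 1)).subschemeι _ hn.1,
    CohqA.AffPush.isFT_push (𝓘 ^ (n + 1)).subschemeι _ hn.1 hn.2⟩

include h in
/-- **The inverse system of a coherent system of modules on the completion is a formal coherent system.** -/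
theorem isCohFormal_toSys (h𝔐 : 𝔐.IsCoh) : Formal.IsCohFormal J (toSys 𝔐) :=
  (isCohFormal_iff J _).2 ⟨fun n => isCoh_pm 𝔐 n (h𝔐 n), isFormal_toSys h 𝔐⟩

include h in
/-- compatible quotient maps. -/
theorem nonempty_iso_of_isModPow (F : X.Modules) (hF : Coh.IsQCoh F) (p : ∀ n, F ⟶ pm 𝔐 n)
    (hp : ∀ n, IsModPow (J ^ (n + 1)) (p n)) (hpt : ∀ n, p (n + 1) ≫ ptr 𝔐 n = p n) :
    Nonempty (completionMod 𝓘 F ≅ 𝔐) :=
  nonempty_iso_of_isKQuot 𝔐 F hF p (fun n => (h.pow (n + 1)).isKQuot (hp n)) hpt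

include h in
/-- **Recognition of the completion.** -/
theorem nonempty_iso (F : X.Modules) (hF : Coh.IsQCoh F)
    (e : Nonempty (Formal.completion J F ≅ toSys 𝔐)) : Nonempty (completionMod 𝓘 F ≅ 𝔐) := by
  obtain ⟨e⟩ := e
  refine nonempty_iso_of_isModPow h 𝔐 F hF (fun n => cπ J F n ≫ e.hom.app (op n)) (fun n => ?_)
    (fun n => ?_)
  · have h3 : IsIso (e.hom.app (op n)) := (e.app (op n)).isIso_hom
    exact IsModPow.comp_iso (isModPow_cπ J F n) (e.hom.app (op n))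
  · have h1 := e.hom.naturality (homOfLE (Nat.le_succ n)).op
    have h2 : (toSys 𝔐).map (homOfLE (Nat.le_succ n)).op = ptr 𝔐 n := toSys_map_succ 𝔐 n
    rw [h2] at h1
    rw [Category.assoc]
    refine (congrArg (cπ J F (n + 1) ≫ ·) h1.symm).trans ?_
    change cπ J F (n + 1) ≫ (Formal.completion J F).map (homOfLE (Nat.le_succ n)).op ≫ _ = _
    rw [cπ_map_succ_assoc]
    rfl

end Sys

/-- The ideal of `Spec (A/J) ⟶ Spec A` on global sections. -/
theorem ker_specMk_ideal_top (J : Ideal A) :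
    (Spec.map (CommRingCat.ofHom (Ideal.Quotient.mk J))).ker.ideal
      ⟨⊤, isAffineOpen_top (Spec (CommRingCat.of A))⟩ =
    J.map (Scheme.ΓSpecIso (CommRingCat.of A)).inv.hom := by
  rw [Scheme.Hom.ker_apply]
  ext y
  obtain ⟨a, rfl⟩ : ∃ a, (Scheme.ΓSpecIso (CommRingCat.of A)).inv.hom a = y :=
    ⟨(Scheme.ΓSpecIso (CommRingCat.of A)).hom y,
      congr($((Scheme.ΓSpecIso (CommRingCat.of A)).hom_inv_id) y)⟩
  have h2 : (Spec.map (CommRingCat.ofHom (Ideal.Quotient.mk J))).app ⊤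
      ((Scheme.ΓSpecIso (CommRingCat.of A)).inv.hom a) =
      (Scheme.ΓSpecIso (CommRingCat.of (A ⧸ J))).inv.hom (Ideal.Quotient.mk J a) :=
    congr($(Scheme.ΓSpecIso_inv_naturality (CommRingCat.ofHom (Ideal.Quotient.mk J))) a).symm
  have hinj : ∀ (R : Type u) [CommRing R],
      Function.Injective (Scheme.ΓSpecIso (CommRingCat.of R)).inv.hom := fun R _ =>
    (ConcreteCategory.bijective_of_isIso (Scheme.ΓSpecIso (CommRingCat.of R)).inv).1
  have hsurj : Function.Surjective (Scheme.ΓSpecIso (CommRingCat.of A)).inv.hom :=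
    (ConcreteCategory.bijective_of_isIso (Scheme.ΓSpecIso (CommRingCat.of A)).inv).2
  rw [RingHom.mem_ker, Ideal.mem_map_iff_of_surjective _ hsurj]
  constructor
  · intro h
    refine ⟨a, ?_, rfl⟩
    rw [← Ideal.Quotient.eq_zero_iff_mem]
    exact hinj _ ((h2.symm.trans h).trans (map_zero _).symm)
  · rintro ⟨b, hb, hab⟩
    have hba : b = a := hinj _ hab
    subst hba
    refine h2.trans ?_
    rw [Ideal.Quotient.eq_zero_iff_mem.2 hb, map_zero]
    rfl

/-- `(Spec.map mk).ker.comap (X ↘ Spec A)` is generated by `J`. -/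
theorem isGenBy_comap (J : Ideal A) : IsGenBy J
    ((Spec.map (CommRingCat.ofHom (Ideal.Quotient.mk J))).ker.comap
      (X ↘ Spec (CommRingCat.of A))) := by
  intro V
  rw [Groth.Agent.Divis.IdealComap.ideal_comap _ (X ↘ Spec (CommRingCat.of A))
    ⟨⊤, isAffineOpen_top _⟩ V le_top]
  rw [ker_specMk_ideal_top, Ideal.map_map]
  congr 1

end Groth.Agent.Sga2lef.H96.ModSysFormal
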