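import Groth.Agent.Sga2lef.H96.GrKer
import Groth.Agent.Sga2lef.H96.GrAlgebraize
import Groth.Agent.Sga2lef.H96.GrFin

/-!
# Generation of the cohomology of the kernels, and algebraization on the punctured spectrum
-/

set_option autoImplicit false
universe u

open CategoryTheory CategoryTheory.Limits AlgebraicGeometry Opposite TopologicalSpace

namespace Groth.Agent.Sga2lef.H96.GrGen

open Groth.Agent.FormalB.ModPow Groth.Agent.FormalB.HMod
open Groth.Agent.Sga2lef.H96.MuOp Groth.Agent.Sga2lef.H96.GrKerAlg Groth.Agent.Sga2lef.H96.GrKer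

theorem sum_hom_apply {A : Type u} [CommRing A] {M N : ModuleCat.{u} A} {b : ℕ}
    (f : Fin b → (M ⟶ N)) (z : M) : (∑ i, f i : M ⟶ N) z = ∑ i, (f i) z := by
  change (∑ i, f i : M ⟶ N).hom z = _
  rw [ModuleCat.hom_sum, LinearMap.sum_apply]

section Gen

variable {A : Type u} [CommRing A] {X : Scheme.{u}} [X.Over (Spec (CommRingCat.of A))]
  {J : Ideal A} {G : ℕᵒᵖ ⥤ X.Modules} (hG : IsFormal J G)
  {ι : Type} {a : ι → A} (ha : ∀ j, a j ∈ J) (hspan : J ≤ Ideal.span (Set.range a)) (p : ℕ)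

theorem kap_congr (n : ℕ) {e e' : A} (h : e = e') (he : e ∈ J) (he' : e' ∈ J) :
    kap hG n he = kap hG n he' := by subst h; rfl

include hspan in
theorem kap_mem (n : ℕ) {c : A} (hc : c ∈ J) (w : (HM A X p).obj (KS G n)) :
    (HM A X p).map (kap hG n hc) w ∈ ⨆ j, LinearMap.range ((HM A X p).map (kap hG n (ha j))).hom := by
  have key : ∀ c ∈ Ideal.span (Set.range a), ∃ hc : c ∈ J,
      ∀ w : (HM A X p).obj (KS G n), (HM A X p).map (kap hG n hc) w ∈
        ⨆ j, LinearMap.range ((HM A X p).map (kap hG n (ha j))).hom := by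
    intro c hc
    refine Submodule.span_induction (p := fun c _ => ∃ hc : c ∈ J,
      ∀ w : (HM A X p).obj (KS G n), (HM A X p).map (kap hG n hc) w ∈
        ⨆ j, LinearMap.range ((HM A X p).map (kap hG n (ha j))).hom) ?_ ?_ ?_ ?_ hc
    · rintro _ ⟨j, rfl⟩
      exact ⟨ha j, fun w => Submodule.mem_iSup_of_mem j ⟨w, rfl⟩⟩
    · refine ⟨Ideal.zero_mem _, fun w => ?_⟩
      have h0 : kap hG n (Ideal.zero_mem J) = 0 := by
        have h1 := kap_smul hG n (0 : A) (Ideal.zero_mem J) (by rw [mul_zero]; exact Ideal.zero_mem _)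
        rw [smulMod_zero, zero_comp] at h1
        rw [← h1]
        exact kap_congr hG n (zero_mul 0).symm _ _
      rw [h0, Functor.map_zero]
      exact Submodule.zero_mem _
    · rintro x y _ _ ⟨hx, hx'⟩ ⟨hy, hy'⟩
      refine ⟨Ideal.add_mem _ hx hy, fun w => ?_⟩
      rw [kap_add hG n hx hy, Functor.map_add]
      exact Submodule.add_mem _ (hx' w) (hy' w)
    · rintro r x _ ⟨hx, hx'⟩
      refine ⟨Ideal.mul_mem_left _ r hx, fun w => ?_⟩
      rw [show kap hG n (Ideal.mul_mem_left _ r hx : r • x ∈ J) =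
        Formal.smulMod A _ r ≫ kap hG n hx from kap_smul hG n r hx _, Functor.map_comp]
      exact hx' _
  obtain ⟨h1, h2⟩ := key c (hspan hc)
  exact h2 w

include hspan in
theorem kmu_mem (n : ℕ) {c : A} (hc : c ∈ J ^ (n + 1)) (w : (HM A X p).obj (KS G 0)) :
    (HM A X p).map (kmu hG (n + 1) hc) w ∈
      ⨆ j, LinearMap.range ((HM A X p).map (kap hG n (ha j))).hom := by
  have key : ∀ c ∈ J ^ (n + 1), ∃ hc : c ∈ J ^ (n + 1),
      (HM A X p).map (kmu hG (n + 1) hc) w ∈
        ⨆ j, LinearMap.range ((HM A X p).map (kap hG n (ha j))).hom := by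
    intro c hc
    rw [pow_succ'] at hc
    refine Submodule.mul_induction_on hc (fun b hb d hd => ?_) (fun x y hx hy => ?_)
    · have h1 : b * d ∈ J ^ (n + 1) := by
        rw [pow_succ']
        exact Ideal.mul_mem_mul hb hd
      refine ⟨h1, ?_⟩
      rw [← kmu_kap hG n hd hb h1, Functor.map_comp]
      exact kap_mem hG ha hspan p n hb _
    · obtain ⟨hx, hx'⟩ := hx
      obtain ⟨hy, hy'⟩ := hy
      refine ⟨Ideal.add_mem _ hx hy, ?_⟩
      rw [kmu_add hG (n + 1) hx hy, Functor.map_add]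
      exact Submodule.add_mem _ hx' hy'
  obtain ⟨h1, h2⟩ := key c hc
  exact h2

variable [HasFiniteBiproducts X.Modules]

theorem exists_sum_of_isIso {n b : ℕ} {e : Fin b → A} (he : ∀ i, e i ∈ J ^ n)
    (hiso : IsIso (phi hG n he)) (y : (HM A X p).obj (KS G n)) :
    ∃ z : Fin b → (HM A X p).obj (KS G 0), y = ∑ i, (HM A X p).map (kmu hG n (he i)) (z i) := by
  let z := (HM A X p).map (inv (phi hG n he)) y
  refine ⟨fun i => (HM A X p).map (biproduct.π (fun _ : Fin b => KS G 0) i) z, ?_⟩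
  have h1 : ∑ i, (biproduct.π (fun _ : Fin b => KS G 0) i ≫ kmu hG n (he i)) = phi hG n he := by
    have h2 : ∀ i, kmu hG n (he i) = biproduct.ι (fun _ : Fin b => KS G 0) i ≫ phi hG n he := by
      intro i
      rw [phi, biproduct.ι_desc]
    simp only [h2, ← Category.assoc]
    rw [← Preadditive.sum_comp, biproduct.total, Category.id_comp]
  have h3 : (HM A X p).map (phi hG n he) z = y := by
    have h4 : (HM A X p).map (inv (phi hG n he)) ≫ (HM A X p).map (phi hG n he) = 𝟙 _ := by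
      rw [← Functor.map_comp, IsIso.inv_hom_id, CategoryTheory.Functor.map_id]
    exact congr($(h4) y)
  rw [← h3, ← h1, Functor.map_sum]
  refine (sum_hom_apply _ z).trans ?_
  refine Finset.sum_congr rfl fun i _ => ?_
  rw [Functor.map_comp]
  rfl

include hspan in
theorem gen_of_isIso {n b : ℕ} {e : Fin b → A} (he : ∀ i, e i ∈ J ^ (n + 1))
    (hiso : IsIso (phi hG (n + 1) he)) : (⊤ : Submodule A ((HM A X p).obj (KS G (n + 1)))) ≤
      ⨆ j, LinearMap.range ((HM A X p).map (kap hG n (ha j))).hom := by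
  intro y _
  obtain ⟨z, rfl⟩ := exists_sum_of_isIso hG p he hiso y
  exact Submodule.sum_mem _ fun i _ => kmu_mem hG ha hspan p n (he i) (z i)

end Gen

/-- **Algebraization on the punctured spectrum.** -/
theorem algebraize (A : Type u) [CommRing A] [IsLocalRing A] [IsNoetherianRing A] (J : Ideal A)
    [IsLocalRing (A ⧸ J)] (hd : (3 : ℕ∞) ≤ LocCoh.depth (A ⧸ J) (A ⧸ J))
    (hgr : ∀ n : ℕ, Module.Free (A ⧸ J) (↥(J ^ n) ⧸ (J • (⊤ : Submodule A ↥(J ^ n)))))
    [IsPrecomplete J A] (U : (Spec (CommRingCat.of A)).Opens)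
    (hU : U = LocCoh.puncturedOpen A (IsLocalRing.maximalIdeal A))
    (G : ℕᵒᵖ ⥤ (U : Scheme.{u}).Modules) (hG : IsFormal J G)
    (hcoh : ∀ n : ℕ, Coh.IsCoh (G.obj (op n)))
    (hfree : ∀ n : ℕ, Formal2.IsFinLocFreeMod J (n + 1) (G.obj (op n))) :
    ∃ F : (U : Scheme.{u}).Modules, Coh.IsCoh F ∧ Nonempty (Formal.completion J F ≅ G) := by
  subst hU
  have hfb : HasFiniteBiproducts
    (LocCoh.puncturedOpen A (IsLocalRing.maximalIdeal A) : Scheme.{u}).Modules :=
    Abelian.hasFiniteBiproducts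
  obtain ⟨k, a, hspan⟩ := Submodule.fg_iff_exists_fin_generating_family.1
    (IsNoetherian.noetherian J : J.FG)
  have ha : ∀ j, a j ∈ J := fun j => by
    rw [← hspan]
    exact Submodule.subset_span ⟨j, rfl⟩
  have hk0 : Formal.KilledBy J (G.obj (op 0)) := by
    have := hG.killed 0
    rwa [zero_add, pow_one] at this
  have hgen : ∀ p n, (⊤ : Submodule A ((HM A (LocCoh.puncturedOpen A (IsLocalRing.maximalIdeal A) :
      Scheme.{u}) p).obj (KS G (n + 1)))) ≤
      ⨆ j, LinearMap.range ((HM A (LocCoh.puncturedOpen A (IsLocalRing.maximalIdeal A) :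
        Scheme.{u}) p).map (kap hG n (ha j))).hom := by
    intro p n
    obtain ⟨b, e, he⟩ := exists_isGrBasis J (n + 1) (hgr (n + 1))
    exact gen_of_isIso hG ha hspan.ge p he.mem
      (isIso_phi _ hG he (hfree (n + 1)))
  refine GrAlgebraize.algebraize A _ (IsLocalRing.maximalIdeal A)
    (Groth.Agent.S0822.not_le _) (Groth.Agent.FormalA.InjSec.isCompact_opens _) G hG
    (fun n => (hcoh n).1) a ha (hgen 0) (hgen 1) ?_ ?_ ?_
  · exact GrFin.finite_H0 hd (G.obj (op 0)) (hcoh 0) (hfree 0)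
  · exact GrFin.finite_H1 hd (G.obj (op 0)) (hcoh 0) hk0 (hfree 0)
  · exact GrFin.exists_kill_H1 hd (G.obj (op 0)) (hcoh 0) hk0 (hfree 0)

end Groth.Agent.Sga2lef.H96.GrGen
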