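import Groth.Agent.FormalB.AdicSys
import Groth.Agent.FormalB.GrAlg
import Groth.Agent.FormalA.AdicFin
import Mathlib.RingTheory.AdicCompletion.Functoriality

/-!
# Towers of modules with operators `J^n/J^(n+1)`

`P n` plays the role of `H^0(G_n)`, `K n` of `H^0(ker (G_n → G_(n-1)))` and `H n` of `H^1(ker (G_n → G_(n-1)))`
for a formal system `(G_n)` for the ideal `J = (a_j)_j`; `θ j`, `κ j`, `η j` are the multiplications by `a_j`.
If `K`, `H` are generated in degree `0` under these operators, `K 0` and `H 0` are finite, and `A` is complete,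
then `M = lim P n` is finite (`finite_lim`), the kernel filtration is cofinal with the `J`-adic filtration
(`exists_mem_smul`), and the cokernel of `M → P n` is killed by a power of `𝔞` if `H 0` is (`exists_smul_lift`).
-/

set_option autoImplicit false

universe u

namespace Groth.Agent.Sga2lef.H96.GrTower

open Groth.Agent.FormalB.AdicSys

/-- **Finiteness**: `A` precomplete, `M` separated, `M/JM` finite. -/
theorem finite_of_isHausdorff {A : Type*} [CommRing A] (J : Ideal A) [IsPrecomplete J A]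
    {M : Type*} [AddCommGroup M] [Module A M] (hM : IsHausdorff J M) {r : ℕ} (f : Fin r → M)
    (hf : ∀ x : M, ∃ y ∈ Submodule.span A (Set.range f), x - y ∈ (J • ⊤ : Submodule A M)) :
    Module.Finite A M := by
  classical
  let φ : (Fin r → A) →ₗ[A] M := Fintype.linearCombination A f
  have hφ : LinearMap.range φ = Submodule.span A (Set.range f) :=
    Fintype.range_linearCombination A f
  refine Module.Finite.of_surjective φ (surjective_of_mkQ_comp_surjective (I := J) ?_)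
  intro z
  obtain ⟨x, rfl⟩ := Submodule.mkQ_surjective _ z
  obtain ⟨y, hy, hxy⟩ := hf x
  rw [← hφ] at hy
  obtain ⟨v, rfl⟩ := hy
  refine ⟨v, ?_⟩
  rw [LinearMap.comp_apply]
  symm
  rw [← sub_eq_zero, ← map_sub, Submodule.mkQ_apply, Submodule.Quotient.mk_eq_zero]
  exact hxy

/-- A tower with operators. -/
structure Tower (A : Type u) [CommRing A] (J : Ideal A) {ι : Type} (a : ι → A)
    (P K H : ℕ → Type u) [∀ n, AddCommGroup (P n)] [∀ n, Module A (P n)]
    [∀ n, AddCommGroup (K n)] [∀ n, Module A (K n)] [∀ n, AddCommGroup (H n)]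
    [∀ n, Module A (H n)] where
  t : ∀ n, P (n + 1) →ₗ[A] P n
  i : ∀ n, K n →ₗ[A] P n
  δ : ∀ n, P n →ₗ[A] H (n + 1)
  θ : ι → ∀ n, P n →ₗ[A] P (n + 1)
  κ : ι → ∀ n, K n →ₗ[A] K (n + 1)
  η : ι → ∀ n, H n →ₗ[A] H (n + 1)
  i_inj : ∀ n, Function.Injective (i n)
  i_zero_surj : Function.Surjective (i 0)
  ker_t : ∀ n x, t n x = 0 → ∃ k, i (n + 1) k = x
  t_i : ∀ n k, t n (i (n + 1) k) = 0
  ker_δ : ∀ n x, δ n x = 0 → ∃ y, t n y = x
  δ_t : ∀ n y, δ n (t n y) = 0
  θ_t : ∀ j n x, θ j n (t n x) = a j • x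
  t_θ : ∀ j n x, t n (θ j n x) = a j • x
  θ_i : ∀ j n k, θ j n (i n k) = i (n + 1) (κ j n k)
  δ_θ : ∀ j n x, δ (n + 1) (θ j n x) = η j (n + 1) (δ n x)
  κ_comm : ∀ j j' n k, κ j (n + 1) (κ j' n k) = κ j' (n + 1) (κ j n k)
  η_comm : ∀ j j' n k, η j (n + 1) (η j' n k) = η j' (n + 1) (η j n k)
  killJ : ∀ n, ∀ b ∈ J ^ (n + 1), ∀ x : P n, b • x = 0
  κ_gen : ∀ n, (⊤ : Submodule A (K (n + 1))) ≤ ⨆ j, LinearMap.range (κ j n)
  η_gen : ∀ n, (⊤ : Submodule A (H (n + 1))) ≤ ⨆ j, LinearMap.range (η j n)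

namespace Tower

variable {A : Type u} [CommRing A] {J : Ideal A} {ι : Type} {a : ι → A}
  {P K H : ℕ → Type u} [∀ n, AddCommGroup (P n)] [∀ n, Module A (P n)]
  [∀ n, AddCommGroup (K n)] [∀ n, Module A (K n)] [∀ n, AddCommGroup (H n)]
  [∀ n, Module A (H n)] (T : Tower A J a P K H) (ha : ∀ j, a j ∈ J)

include T ha in
theorem smul_zero_eq (j : ι) (x : P 0) : a j • x = 0 :=
  T.killJ 0 (a j) (by simpa using ha j) x

theorem θ_trans (j : ι) {l m : ℕ} (h : l ≤ m) (h' : l + 1 ≤ m + 1) (x : P m) :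
    trans T.t h' (T.θ j m x) = T.θ j l (trans T.t h x) := by
  induction m, h using Nat.le_induction with
  | base => rw [trans_self_apply, trans_self_apply]
  | succ m hm ih =>
    rw [trans_succ_apply T.t (by omega : l + 1 ≤ m + 1) h', T.t_θ, ← T.θ_t, ih (by omega),
      trans_succ_apply T.t hm]

include ha in
theorem θ_trans_zero (j : ι) {m : ℕ} (h : 0 ≤ m + 1) (x : P m) :
    trans T.t h (T.θ j m x) = 0 := by
  rw [← trans_succ_left T.t (by omega : 0 + 1 ≤ m + 1) h, T.θ_trans j (Nat.zero_le m), T.t_θ,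
    T.smul_zero_eq ha]

/-- Elements of `P m` dying in `P (k-1)`. -/
def Z (m k : ℕ) : Submodule A (P m) where
  carrier := {x | ∀ l (h : l ≤ m), l < k → trans T.t h x = 0}
  zero_mem' := fun l h _ => map_zero _
  add_mem' := fun {x y} hx hy l h hl => by rw [map_add, hx l h hl, hy l h hl, add_zero]
  smul_mem' := fun b x hx l h hl => by rw [map_smul, hx l h hl, smul_zero]

theorem mem_Z {m k : ℕ} {x : P m} : x ∈ T.Z m k ↔ ∀ l (h : l ≤ m), l < k → trans T.t h x = 0 :=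
  Iff.rfl

theorem mem_Z_zero {m : ℕ} (x : P m) : x ∈ T.Z m 0 := fun l _ hl => absurd hl (Nat.not_lt_zero l)

include ha in
theorem θ_mem_Z (j : ι) {m k : ℕ} {x : P m} (hx : x ∈ T.Z m k) :
    T.θ j m x ∈ T.Z (m + 1) (k + 1) := by
  intro l h hl
  rcases l with _ | l
  · exact T.θ_trans_zero ha j h x
  · rw [T.θ_trans j (by omega : l ≤ m), hx l _ (by omega), map_zero]

/-! ### The obstruction modules -/

/-- The image of the connecting maps. -/
def D : ∀ n, Submodule A (H n)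
  | 0 => ⊥
  | n + 1 => LinearMap.range (T.δ n)

theorem map_D_le (j : ι) (n : ℕ) : (T.D n).map (T.η j n) ≤ T.D (n + 1) := by
  rcases n with _ | n
  · change Submodule.map _ ⊥ ≤ _
    rw [Submodule.map_bot]
    exact bot_le
  · rintro _ ⟨_, ⟨x, rfl⟩, rfl⟩
    exact ⟨T.θ j n x, T.δ_θ j n x⟩

theorem mem_iSup_range {κ' : Type*} [Finite κ'] {M M' : Type*} [AddCommGroup M] [Module A M]
    [AddCommGroup M'] [Module A M'] (f : κ' → M →ₗ[A] M') (N : Submodule A M) {x : M'}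
    (hx : x ∈ ⨆ j, N.map (f j)) : ∃ y : κ' → M, (∀ j, y j ∈ N) ∧
      x = ∑ᶠ j, f j (y j) := by
  classical
  cases nonempty_fintype κ'
  rw [Submodule.mem_iSup_iff_exists_finsupp] at hx
  obtain ⟨v, hv, rfl⟩ := hx
  choose y hy hyv using hv
  refine ⟨y, hy, ?_⟩
  rw [finsum_eq_sum_of_fintype, Finsupp.sum_fintype _ _ (fun _ => rfl)]
  exact Finset.sum_congr rfl fun j _ => (hyv j).symm

section Fin

variable [IsNoetherianRing A] [Fintype ι]

omit [IsNoetherianRing A] in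
theorem finite_of_gen {M : ℕ → Type u} [∀ n, AddCommGroup (M n)] [∀ n, Module A (M n)]
    (x : ι → ∀ n, M n →ₗ[A] M (n + 1)) (h0 : Module.Finite A (M 0))
    (hg : ∀ n, (⊤ : Submodule A (M (n + 1))) ≤ ⨆ j, LinearMap.range (x j n)) (n : ℕ) :
    Module.Finite A (M n) := by
  induction n with
  | zero => exact h0
  | succ n ih =>
    refine ⟨?_⟩
    rw [← top_le_iff.1 (hg n)]
    refine Submodule.fg_iSup _ fun j => ?_
    rw [LinearMap.range_eq_map]
    exact Module.Finite.fg_top.map _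

/-- For large `m` all obstructions come from obstructions one level below. -/
theorem exists_D_le (h0 : Module.Finite A (H 0)) : ∃ n₁ : ℕ, ∀ m, n₁ ≤ m → ∀ y : P (m + 1),
    ∃ (y' : P (m + 1)) (w : ι → P m), T.δ (m + 1) y' = 0 ∧ y = y' + ∑ j, T.θ j m (w j) := by
  obtain ⟨n₀, hn₀⟩ := Groth.Agent.FormalB.GrAlg.exists_generated_submodule T.η T.η_comm
    (finite_of_gen T.η h0 T.η_gen) ⟨0, fun n _ => T.η_gen n⟩ T.D T.map_D_le
  refine ⟨n₀, fun m hm y => ?_⟩
  have h1 := hn₀ (m + 1) (by omega) (show T.δ (m + 1) y ∈ T.D (m + 1 + 1) from ⟨y, rfl⟩)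
  obtain ⟨z, hz, hyz⟩ := mem_iSup_range _ _ h1
  have h2 : ∀ j, ∃ w : P m, T.δ m w = z j := hz
  choose w hw using h2
  rw [finsum_eq_sum_of_fintype] at hyz
  refine ⟨y - ∑ j, T.θ j m (w j), w, ?_, by abel⟩
  rw [map_sub, map_sum, hyz, sub_eq_zero]
  exact Finset.sum_congr rfl fun j _ => by rw [T.δ_θ, hw]

include ha in
/-- **Uniform Mittag-Leffler, one step.** -/
theorem exists_ML (h0 : Module.Finite A (H 0)) : ∃ n₁ : ℕ, ∀ k m, n₁ + k ≤ m → ∀ y : P m,
    ∃ y' : P m, T.δ m y' = 0 ∧ y - y' ∈ T.Z m k := by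
  obtain ⟨n₁, hn₁⟩ := T.exists_D_le h0
  refine ⟨n₁, fun k => ?_⟩
  induction k with
  | zero => exact fun m _ y => ⟨0, map_zero _, T.mem_Z_zero _⟩
  | succ k ih =>
    intro m hm y
    obtain ⟨m, rfl⟩ : ∃ m', m = m' + 1 := ⟨m - 1, by omega⟩
    obtain ⟨y', w, hy', hy⟩ := hn₁ m (by omega) y
    choose w' hw' hww using fun j => ih m (by omega) (w j)
    refine ⟨y' + ∑ j, T.θ j m (w' j), ?_, ?_⟩
    · rw [map_add, hy', zero_add, map_sum]
      refine Finset.sum_eq_zero fun j _ => ?_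
      rw [T.δ_θ, hw', map_zero]
    · have h1 : y - (y' + ∑ j, T.θ j m (w' j)) = ∑ j, T.θ j m (w j - w' j) := by
        simp only [map_sub, Finset.sum_sub_distrib]
        rw [hy]; abel
      rw [h1]
      exact Submodule.sum_mem _ fun j _ => T.θ_mem_Z ha j (hww j)

include ha in
/-- **Uniform Mittag-Leffler**: elements of `P m` which lift to `P (n₁ + m)` lift to the limit. -/
theorem exists_lim_of_lift (h0 : Module.Finite A (H 0)) : ∃ n₁ : ℕ, ∀ m (y : P (m + n₁)),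
    ∃ x : Lim T.t, x.1 m = trans T.t (Nat.le_add_right m n₁) y := by
  obtain ⟨n₁, hn₁⟩ := T.exists_ML ha h0
  refine ⟨n₁ + 1, fun m y => ?_⟩
  obtain ⟨x, hx, -⟩ := exists_lim T.t
    (fun m z => ∃ y : P (m + (n₁ + 1)), trans T.t (Nat.le_add_right m (n₁ + 1)) y = z) m (by
    rintro m - z ⟨y, rfl⟩
    obtain ⟨y', hy', hyy⟩ := hn₁ (m + 1) (m + (n₁ + 1)) (by omega) y
    obtain ⟨w, rfl⟩ := T.ker_δ _ _ hy'
    have e : m + (n₁ + 1) + 1 = m + 1 + (n₁ + 1) := by omega
    obtain ⟨w', hw'⟩ : ∃ w' : P (m + 1 + (n₁ + 1)), ∀ (l : ℕ) (h : l ≤ m + (n₁ + 1) + 1)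
        (h' : l ≤ m + 1 + (n₁ + 1)), trans T.t h' w' = trans T.t h w := by
      rw [← e]
      exact ⟨w, fun _ _ _ => rfl⟩
    refine ⟨trans T.t (Nat.le_add_right (m + 1) (n₁ + 1)) w', ?_, w', rfl⟩
    rw [← trans_one T.t m (Nat.le_succ m), trans_trans, hw' m (by omega) _,
      trans_succ_apply T.t (by omega : m ≤ m + (n₁ + 1)), ← sub_eq_zero, ← map_sub, ← neg_sub,
      map_neg, hyy m _ (by omega), neg_zero]) _ ⟨y, rfl⟩
  exact ⟨x, hx⟩

include T in
omit [IsNoetherianRing A] [Fintype ι] in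
/-- `H n` is killed by what kills `H 0`. -/
theorem kill_H (I : Ideal A) (hI : ∀ b ∈ I, ∀ x : H 0, b • x = 0) (n : ℕ) :
    ∀ b ∈ I, ∀ x : H n, b • x = 0 := by
  induction n with
  | zero => exact hI
  | succ n ih =>
    intro b hb x
    have hx : x ∈ ⨆ j, LinearMap.range (T.η j n) := T.η_gen n trivial
    refine Submodule.iSup_induction _ (motive := fun x => b • x = 0) hx ?_ (smul_zero _) ?_
    · rintro j _ ⟨y, rfl⟩
      rw [← map_smul, ih b hb, map_zero]
    · intro x y hx hy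
      rw [smul_add, hx, hy, add_zero]

omit [IsNoetherianRing A] [Fintype ι] in
/-- Lifting after multiplication. -/
theorem exists_lift_smul (I : Ideal A) (hI : ∀ b ∈ I, ∀ x : H 0, b • x = 0) (m c : ℕ) :
    ∀ b ∈ I ^ c, ∀ y : P m, ∃ z : P (m + c), trans T.t (Nat.le_add_right m c) z = b • y := by
  induction c with
  | zero =>
    intro b _ y
    exact ⟨b • y, trans_self_apply _ _ _ _⟩
  | succ c ih =>
    intro b hb y
    rw [pow_succ] at hb
    refine Submodule.mul_induction_on hb (fun b hb b' hb' => ?_) (fun x x' hx hx' => ?_)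
    · obtain ⟨z, hz⟩ := ih b hb y
      obtain ⟨w, hw⟩ := T.ker_δ (m + c) (b' • z) (by
        rw [map_smul, T.kill_H I hI _ b' hb'])
      refine ⟨w, ?_⟩
      have h1 := trans_succ_apply T.t (Nat.le_add_right m c) (Nat.le_add_right m (c + 1)) w
      refine h1.trans ?_
      rw [hw, map_smul, hz, smul_smul, mul_comm]
    · obtain ⟨z, hz⟩ := hx
      obtain ⟨z', hz'⟩ := hx'
      exact ⟨z + z', by rw [map_add, hz, hz', add_smul]⟩

include ha in
/-- **The cokernel of `M → P m` is killed by a power of `𝔞`.** -/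
theorem exists_smul_lift (h0 : Module.Finite A (H 0)) (𝔞 : Ideal A)
    (hk : ∃ e : ℕ, ∀ b ∈ 𝔞 ^ e, ∀ x : H 0, b • x = 0) :
    ∃ e : ℕ, ∀ m, ∀ b ∈ 𝔞 ^ e, ∀ y : P m, ∃ x : Lim T.t, x.1 m = b • y := by
  obtain ⟨n₁, hn₁⟩ := T.exists_lim_of_lift ha h0
  obtain ⟨e, he⟩ := hk
  refine ⟨e * n₁, fun m b hb y => ?_⟩
  rw [pow_mul] at hb
  obtain ⟨z, hz⟩ := T.exists_lift_smul (𝔞 ^ e) he m n₁ b hb y
  obtain ⟨x, hx⟩ := hn₁ m z
  exact ⟨x, hx.trans hz⟩

/-! ### Finiteness of the limit -/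

omit [IsNoetherianRing A] [Fintype ι] in
theorem θ_apply_lim (j : ι) (n : ℕ) (x : Lim T.t) : (a j • x).1 (n + 1) = T.θ j n (x.1 n) := by
  rw [← x.2 n, T.θ_t]
  rfl

/-- The kernel filtration of the limit. -/
def Fil (n : ℕ) : Submodule A (Lim T.t) where
  carrier := {x | ∀ l, l < n → x.1 l = 0}
  zero_mem' := fun _ _ => rfl
  add_mem' := fun {x y} hx hy l hl => by
    change x.1 l + y.1 l = 0
    rw [hx l hl, hy l hl, add_zero]
  smul_mem' := fun b x hx l hl => by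
    change b • x.1 l = 0
    rw [hx l hl, smul_zero]

omit [IsNoetherianRing A] [Fintype ι] in
theorem mem_Fil {n : ℕ} {x : Lim T.t} : x ∈ T.Fil n ↔ ∀ l, l < n → x.1 l = 0 := Iff.rfl

omit [IsNoetherianRing A] [Fintype ι] in
theorem mem_Fil_succ {n : ℕ} {x : Lim T.t} : x ∈ T.Fil (n + 1) ↔ x.1 n = 0 :=
  ⟨fun h => h n (Nat.lt_succ_self n), fun h l hl => Lim.eq_zero_of_le x (by omega) h⟩

omit [IsNoetherianRing A] [Fintype ι] in
theorem Fil_anti {m n : ℕ} (h : m ≤ n) : T.Fil n ≤ T.Fil m := fun _ hx l hl => hx l (by omega)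

include ha in
omit [IsNoetherianRing A] [Fintype ι] in
theorem smul_mem_Fil (j : ι) {n : ℕ} {x : Lim T.t} (hx : x ∈ T.Fil n) : a j • x ∈ T.Fil (n + 1) := by
  intro l hl
  rcases l with _ | l
  · exact T.smul_zero_eq ha j (x.1 0)
  · rw [T.θ_apply_lim, hx l (by omega), map_zero]

omit [IsNoetherianRing A] [Fintype ι] in
theorem pow_smul_le_Fil (n : ℕ) : (J ^ n • ⊤ : Submodule A (Lim T.t)) ≤ T.Fil n := by
  rcases n with _ | n
  · exact fun x _ l hl => absurd hl (Nat.not_lt_zero l)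
  · rw [Submodule.smul_le]
    intro b hb x _
    rw [mem_Fil_succ]
    exact T.killJ n b hb (x.1 n)

/-- Initial forms of elements of the limit. -/
def N (n : ℕ) : Submodule A (K n) where
  carrier := {k | ∃ x ∈ T.Fil n, x.1 n = T.i n k}
  zero_mem' := ⟨0, Submodule.zero_mem _, (map_zero _).symm⟩
  add_mem' := by
    rintro k k' ⟨x, hx, hxk⟩ ⟨x', hx', hxk'⟩
    exact ⟨x + x', Submodule.add_mem _ hx hx', by
      rw [map_add, ← hxk, ← hxk']; rfl⟩
  smul_mem' := by
    rintro b k ⟨x, hx, hxk⟩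
    exact ⟨b • x, Submodule.smul_mem _ b hx, by rw [map_smul, ← hxk]; rfl⟩

include ha in
omit [IsNoetherianRing A] [Fintype ι] in
theorem map_N_le (j : ι) (n : ℕ) : (T.N n).map (T.κ j n) ≤ T.N (n + 1) := by
  rintro _ ⟨k, ⟨x, hx, hxk⟩, rfl⟩
  exact ⟨a j • x, T.smul_mem_Fil ha j hx, by rw [T.θ_apply_lim, hxk, T.θ_i]⟩

omit [IsNoetherianRing A] [Fintype ι] in
theorem exists_i_eq {n : ℕ} {x : Lim T.t} (hx : x ∈ T.Fil n) : ∃ k, T.i n k = x.1 n := by
  rcases n with _ | n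
  · exact T.i_zero_surj _
  · exact T.ker_t n _ (by rw [x.2 n, T.mem_Fil_succ.1 hx])

include ha in
theorem exists_step (h0 : Module.Finite A (K 0)) : ∃ n₀ : ℕ, ∀ n, n₀ ≤ n →
    ∀ x ∈ T.Fil (n + 1), ∃ y : ι → Lim T.t, (∀ j, y j ∈ T.Fil n) ∧
      x - ∑ j, a j • y j ∈ T.Fil (n + 2) := by
  obtain ⟨n₀, hn₀⟩ := Groth.Agent.FormalB.GrAlg.exists_generated_submodule T.κ T.κ_comm
    (finite_of_gen T.κ h0 T.κ_gen) ⟨0, fun n _ => T.κ_gen n⟩ T.N (T.map_N_le ha)
  refine ⟨n₀, fun n hn x hx => ?_⟩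
  obtain ⟨k, hk⟩ := T.exists_i_eq hx
  have h1 := hn₀ n hn (show k ∈ T.N (n + 1) from ⟨x, hx, hk.symm⟩)
  obtain ⟨z, hz, hkz⟩ := mem_iSup_range _ _ h1
  rw [finsum_eq_sum_of_fintype] at hkz
  choose y hy hyz using hz
  refine ⟨y, hy, ?_⟩
  rw [mem_Fil_succ]
  have h2 : (x - ∑ j, a j • y j).1 (n + 1) = x.1 (n + 1) - ∑ j, (a j • y j).1 (n + 1) := by
    have h3 : Lim.proj T.t (n + 1) (x - ∑ j, a j • y j) =
        Lim.proj T.t (n + 1) x - ∑ j, Lim.proj T.t (n + 1) (a j • y j) := by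
      rw [map_sub, map_sum]
    exact h3
  rw [h2, ← hk, hkz, map_sum, sub_eq_zero]
  exact Finset.sum_congr rfl fun j _ => by rw [T.θ_apply_lim, hyz, T.θ_i]

include ha in
/-- Summation: elements of `Fil (n+1)` are combinations of elements of `Fil n` with coefficients `a_j`. -/
theorem exists_eq_sum (h0 : Module.Finite A (K 0)) : ∃ n₀ : ℕ, ∀ n, n₀ ≤ n →
    ∀ x ∈ T.Fil (n + 1), ∃ y : ι → Lim T.t, (∀ j, y j ∈ T.Fil n) ∧ x = ∑ j, a j • y j := by
  classical
  obtain ⟨n₀, hn₀⟩ := T.exists_step ha h0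
  refine ⟨n₀, fun n hn x hx => ?_⟩
  choose! Y hY1 hY2 using hn₀
  let r : ℕ → Lim T.t := fun k => Nat.rec x (fun k z => z - ∑ j, a j • Y (n + k) z j) k
  have hr0 : r 0 = x := rfl
  have hrs : ∀ k, r (k + 1) = r k - ∑ j, a j • Y (n + k) (r k) j := fun k => rfl
  have hr : ∀ k, r k ∈ T.Fil (n + k + 1) := by
    intro k
    induction k with
    | zero => exact hx
    | succ k ih => exact hY2 (n + k) (by omega) (r k) ih
  have hY : ∀ k j, Y (n + k) (r k) j ∈ T.Fil (n + k) := fun k j =>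
    hY1 (n + k) (by omega) (r k) (hr k) j
  let y : ι → Lim T.t := fun j => ⟨fun l => ∑ k ∈ Finset.range (l + 1), (Y (n + k) (r k) j).1 l, by
    intro l
    rw [map_sum, Finset.sum_range_succ]
    have h1 : T.t l ((Y (n + (l + 1)) (r (l + 1)) j).1 (l + 1)) = 0 := by
      rw [(Y (n + (l + 1)) (r (l + 1)) j).2 l]
      exact hY (l + 1) j l (by omega)
    rw [h1, add_zero]
    exact Finset.sum_congr rfl fun k _ => (Y (n + k) (r k) j).2 l⟩
  have hyl : ∀ j l, (y j).1 l = ∑ k ∈ Finset.range (l + 1), (Y (n + k) (r k) j).1 l := fun j l => rfl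
  refine ⟨y, fun j l hl => ?_, ?_⟩
  · rw [hyl]
    exact Finset.sum_eq_zero fun k _ => hY k j l (by omega)
  · apply Lim.ext'
    intro l
    have e1 : (∑ j, a j • y j : Lim T.t).1 l = ∑ j, a j • (y j).1 l := by
      have h3 : Lim.proj T.t l (∑ j, a j • y j) = ∑ j, a j • Lim.proj T.t l (y j) := by
        rw [map_sum]
        exact Finset.sum_congr rfl fun j _ => map_smul _ _ _
      exact h3
    have e2 : ∀ k, (∑ j, a j • Y (n + k) (r k) j : Lim T.t).1 l =
        ∑ j, a j • (Y (n + k) (r k) j).1 l := by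
      intro k
      have h3 : Lim.proj T.t l (∑ j, a j • Y (n + k) (r k) j) =
          ∑ j, a j • Lim.proj T.t l (Y (n + k) (r k) j) := by
        rw [map_sum]
        exact Finset.sum_congr rfl fun j _ => map_smul _ _ _
      exact h3
    have e3 : ∑ j, a j • (y j).1 l = ∑ k ∈ Finset.range (l + 1), ((r k).1 l - (r (k + 1)).1 l) := by
      have h4 : ∀ k, (r k).1 l - (r (k + 1)).1 l = ∑ j, a j • (Y (n + k) (r k) j).1 l := by
        intro k
        rw [← e2, hrs k]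
        exact sub_sub_cancel _ _
      simp only [h4, hyl]
      rw [Finset.sum_comm]
      exact Finset.sum_congr rfl fun j _ => Finset.smul_sum
    rw [e1, e3, Finset.sum_range_sub']
    have h5 : (r (l + 1)).1 l = 0 := hr (l + 1) l (by omega)
    rw [h5, sub_zero, hr0]

include ha in
/-- **The kernel filtration is `J`-stable**, hence cofinal with the `J`-adic one. -/
theorem exists_Fil_le (h0 : Module.Finite A (K 0)) : ∃ n₀ : ℕ, ∀ k,
    T.Fil (n₀ + k) ≤ J ^ k • (⊤ : Submodule A (Lim T.t)) := by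
  obtain ⟨n₀, hn₀⟩ := T.exists_eq_sum ha h0
  refine ⟨n₀, fun k => ?_⟩
  have key : ∀ k, T.Fil (n₀ + k) ≤ J ^ k • T.Fil n₀ := by
    intro k
    induction k with
    | zero => rw [pow_zero, Ideal.one_eq_top, Submodule.top_smul]; exact le_rfl
    | succ k ih =>
      intro x hx
      obtain ⟨y, hy, rfl⟩ := hn₀ (n₀ + k) (by omega) x hx
      rw [pow_succ', mul_smul]
      exact Submodule.sum_mem _ fun j _ => Submodule.smul_mem_smul (ha j) (ih (hy j))
  exact (key k).trans (Submodule.smul_mono le_rfl le_top)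

include T in
omit [Fintype ι] in
/-- finiteness of the terms -/
theorem finite_P (hK : ∀ n, Module.Finite A (K n)) (n : ℕ) : Module.Finite A (P n) := by
  induction n with
  | zero => exact Module.Finite.of_surjective (T.i 0) T.i_zero_surj
  | succ n ih =>
    have h1 : IsNoetherian A (P n) := isNoetherian_of_isNoetherianRing_of_finite A (P n)
    have h2 : IsNoetherian A (K (n + 1)) := isNoetherian_of_isNoetherianRing_of_finite A _
    have h3 : IsNoetherian A (P (n + 1)) := by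
      refine isNoetherian_of_range_eq_ker (T.i (n + 1)) (T.t n) ?_
      ext x
      rw [LinearMap.mem_range, LinearMap.mem_ker]
      exact ⟨fun ⟨k, hk⟩ => by rw [← hk, T.t_i], T.ker_t n x⟩
    infer_instance

include ha in
/-- **Finiteness of the limit.** -/
theorem finite_lim [IsPrecomplete J A] (h0 : Module.Finite A (K 0)) :
    Module.Finite A (Lim T.t) := by
  obtain ⟨n₀, hn₀⟩ := T.exists_Fil_le ha h0
  have hP := T.finite_P (finite_of_gen T.κ h0 T.κ_gen) (n₀ + 1)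
  have hH : IsHausdorff J (Lim T.t) := ⟨fun x hx => Lim.ext' fun n => by
    have h1 := hx (n + 1)
    rw [SModEq.zero] at h1
    exact T.pow_smul_le_Fil (n + 1) h1 n (Nat.lt_succ_self n)⟩
  have hN : IsNoetherian A (P (n₀ + 1)) := isNoetherian_of_isNoetherianRing_of_finite A _
  obtain ⟨r, s, hs⟩ := Submodule.fg_iff_exists_fin_generating_family.1
    (hN.noetherian (LinearMap.range (Lim.proj T.t (n₀ + 1))))
  have hs' : ∀ k, ∃ x : Lim T.t, Lim.proj T.t (n₀ + 1) x = s k := fun k => by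
    have : s k ∈ LinearMap.range (Lim.proj T.t (n₀ + 1)) := by
      rw [← hs]
      exact Submodule.subset_span ⟨k, rfl⟩
    exact this
  choose f hf using hs'
  refine finite_of_isHausdorff J hH f fun x => ?_
  have h1 : Lim.proj T.t (n₀ + 1) x ∈ (Submodule.span A (Set.range f)).map
      (Lim.proj T.t (n₀ + 1)) := by
    rw [Submodule.map_span, ← Set.range_comp]
    have h2 : (Lim.proj T.t (n₀ + 1)) ∘ f = s := funext hf
    rw [h2, hs]
    exact ⟨x, rfl⟩
  obtain ⟨y, hy, hyx⟩ := h1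
  refine ⟨y, hy, ?_⟩
  have h3 : x - y ∈ T.Fil (n₀ + 1 + 1) := by
    rw [mem_Fil_succ]
    change Lim.proj T.t (n₀ + 1) (x - y) = 0
    rw [map_sub, hyx, sub_self]
  have h4 := hn₀ 1 (T.Fil_anti (by omega) h3)
  rwa [pow_one] at h4

include ha in
/-- **Deep elements of the limit are in `J^n M`.** -/
theorem exists_mem_smul (h0 : Module.Finite A (K 0)) (n : ℕ) : ∃ N : ℕ, ∀ x : Lim T.t,
    x.1 N = 0 → x ∈ (J ^ n • ⊤ : Submodule A (Lim T.t)) := by
  obtain ⟨n₀, hn₀⟩ := T.exists_Fil_le ha h0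
  exact ⟨n₀ + n, fun x hx => hn₀ n (T.Fil_anti (Nat.le_succ _) (T.mem_Fil_succ.2 hx))⟩

end Fin

end Tower

end Groth.Agent.Sga2lef.H96.GrTower
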