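import Groth.Agent.Sga2lef.H96.ModSysFormal
import Groth.Agent.Dcoh.PushRestrict
import Groth.Agent.Ega2.QCohLocal
import Groth.Prelude.Def_LefX
import Mathlib.Algebra.Category.ModuleCat.Sheaf.PullbackFree

/-!
# Levelwise finite locally free systems

`isFinLocFreeMod_toSys`: if the levels of `𝔐` are finite locally free, then the terms of the inverse system
`toSys 𝔐` are finite locally free over `O_X / J^(n+1) O_X`.
-/

set_option autoImplicit false
universe u

open CategoryTheory AlgebraicGeometry Opposite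

namespace Groth.Agent.Sga2lef.H96.LevelFree

open AlgebraicGeometry.Scheme.Modules FSch
open Groth.Agent.FormalB.KQuot Groth.Agent.FormalB.TrKQuot Groth.Agent.FormalB.ModPow
open Groth.Agent.Sga2lef.H96.ModSysPush Groth.Agent.Sga2lef.H96.ModSysFormal

section Free

variable {X Y : Scheme.{u}}

theorem final_opensMap {X Y : TopCat.{u}} (f : X ⟶ Y) :
    (TopologicalSpace.Opens.map f).Final where
  out d := by
    let t : StructuredArrow d (TopologicalSpace.Opens.map f) :=
      StructuredArrow.mk (Y := (⊤ : TopologicalSpace.Opens Y)) (homOfLE le_top)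
    have : Limits.IsTerminal t := Limits.IsTerminal.ofUniqueHom
      (fun s => StructuredArrow.homMk (homOfLE le_top) (Subsingleton.elim _ _))
      (fun s m => by ext; exact Subsingleton.elim _ _)
    exact isConnected_of_isTerminal _ this

/-- Pullback of the structure sheaf. -/
noncomputable def pullbackUnit (f : X ⟶ Y) :
    (Scheme.Modules.pullback f).obj (Coh.structureModule Y) ≅ Coh.structureModule X :=
  haveI : (TopologicalSpace.Opens.map f.base).Final := final_opensMap _
  haveI : IsIso (SheafOfModules.pullbackObjUnitToUnit f.toRingCatSheafHom) :=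
    SheafOfModules.instIsIsoPullbackObjUnitToUnitOfFinal _
  let e := asIso (SheafOfModules.pullbackObjUnitToUnit f.toRingCatSheafHom)
  { hom := e.hom
    inv := e.inv
    hom_inv_id := e.hom_inv_id
    inv_hom_id := e.inv_hom_id }

/-- Pullback of free modules. -/
noncomputable def pullbackFreeMod (f : X ⟶ Y) (n : ℕ) :
    (Scheme.Modules.pullback f).obj (FlatMod.freeMod Y n) ≅ FlatMod.freeMod X n :=
  Limits.PreservesCoproduct.iso (Scheme.Modules.pullback f) _ ≪≫
    Limits.Sigma.mapIso fun _ => pullbackUnit f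

/-- Restriction of free modules. -/
noncomputable def freeModRestrict (j : X ⟶ Y) [IsOpenImmersion j] (n : ℕ) :
    (FlatMod.freeMod Y n).restrict j ≅ FlatMod.freeMod X n :=
  Limits.PreservesCoproduct.iso (restrictFunctor j) _ ≪≫
    Limits.Sigma.mapIso fun _ => restrictUnitIso j

/-- modules on the empty scheme -/
theorem isZero_of_isEmpty [IsEmpty X] (M : X.Modules) : Limits.IsZero M := by
  rw [Limits.IsZero.iff_id_eq_zero]
  apply Scheme.Modules.hom_ext
  intro U
  ext m
  have h : ∀ s t : Γ(M, U), s = t := by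
    intro s t
    refine TopCat.Sheaf.eq_of_locally_eq' ⟨_, M.isSheaf⟩ (fun i : PEmpty.{u+1} => i.elim) U
      (fun i : PEmpty.{u+1} => i.elim) ?_ _ _ (fun i : PEmpty.{u+1} => i.elim)
    intro x
    exact isEmptyElim x
  exact h _ _

/-- If `N` and `N'` are isomorphic over `i⁻¹(V)`, then `i_* N` and `i_* N'` are isomorphic over `V`. -/
theorem nonempty_push_restrict (i : Y ⟶ X) (V : X.Opens) {N N' : Y.Modules}
    (e : Nonempty (N.restrict (i ⁻¹ᵁ V).ι ≅ N'.restrict (i ⁻¹ᵁ V).ι)) :
    Nonempty (((Scheme.Modules.pushforward i).obj N).restrict V.ι ≅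
      ((Scheme.Modules.pushforward i).obj N').restrict V.ι) := by
  obtain ⟨e⟩ := e
  exact ⟨(Groth.Agent.Dcoh.PushRestrict.pushMorphismRestrictIso i V).app N ≪≫
    (Scheme.Modules.pushforward (i ∣_ V)).mapIso e ≪≫
    ((Groth.Agent.Dcoh.PushRestrict.pushMorphismRestrictIso i V).app N').symm⟩

/-- Finite locally free modules on a closed subscheme, locally on the ambient scheme. -/
theorem exists_open_free (i : Y ⟶ X) [IsClosedImmersion i] {N : Y.Modules}
    (hN : FlatMod.IsFinLocFree N) (x : X) : ∃ (V : X.Opens) (r : ℕ), x ∈ V ∧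
      Nonempty (N.restrict (i ⁻¹ᵁ V).ι ≅ (FlatMod.freeMod Y r).restrict (i ⁻¹ᵁ V).ι) := by
  by_cases hx : x ∈ Set.range i.base
  · obtain ⟨y, rfl⟩ := hx
    obtain ⟨W, r, hy, ⟨e⟩⟩ := hN y
    obtain ⟨V, rfl⟩ := Ega1.ClosedUnit.exists_opens_eq i i.isClosedEmbedding.isInducing W
    exact ⟨V, r, hy, ⟨e ≪≫ (freeModRestrict _ r).symm⟩⟩
  · refine ⟨⟨(Set.range i.base)ᶜ, i.isClosedEmbedding.isClosed_range.isOpen_compl⟩, 0, hx, ?_⟩
    have : IsEmpty (i ⁻¹ᵁ (⟨(Set.range i.base)ᶜ,
        i.isClosedEmbedding.isClosed_range.isOpen_compl⟩ : X.Opens) : Scheme.{u}) :=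
      ⟨fun y => y.2 ⟨y.1, rfl⟩⟩
    exact ⟨(isZero_of_isEmpty _).iso (isZero_of_isEmpty _)⟩

end Free

variable {A : Type u} [CommRing A] {X : Scheme.{u}} [X.Over (Spec (CommRingCat.of A))]
  {J : Ideal A} {𝓘 : X.IdealSheafData} (h : IsGenBy J 𝓘) (𝔐 : ModSys (completionAlong X 𝓘))

include h in
/-- `O_X^r / J^n O_X^r` is the direct image of the free module on `V(𝓘^n)`. -/
theorem nonempty_modPow_iso (n r : ℕ) :
    Nonempty (Formal.modPow J n (FlatMod.freeMod X r) ≅
      (Scheme.Modules.pushforward (𝓘 ^ n).subschemeι).obj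
        (FlatMod.freeMod (𝓘 ^ n).subscheme r)) := by
  obtain ⟨e, -, -⟩ := (isModPow_modPowπ J n (FlatMod.freeMod X r)).exists_iso
    ((h.pow n).isModPow (isKQuot_kπ (𝓘 ^ n) (Ega2.QCohLocal.isQCoh_freeMod X r)))
  exact ⟨e ≪≫ (Scheme.Modules.pushforward (𝓘 ^ n).subschemeι).mapIso (pullbackFreeMod _ r)⟩

include h in
theorem isFinLocFreeMod_push (n : ℕ) {N : (𝓘 ^ n).subscheme.Modules}
    (hN : FlatMod.IsFinLocFree N) :
    Formal2.IsFinLocFreeMod J n ((Scheme.Modules.pushforward (𝓘 ^ n).subschemeι).obj N) := by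
  intro x
  obtain ⟨V, r, hx, he⟩ := exists_open_free (𝓘 ^ n).subschemeι hN x
  obtain ⟨e⟩ := nonempty_push_restrict (𝓘 ^ n).subschemeι V he
  obtain ⟨e'⟩ := nonempty_modPow_iso h n r
  exact ⟨V, r, hx, ⟨e ≪≫ (restrictFunctor V.ι).mapIso e'.symm⟩⟩

include h in
/-- **The terms of the inverse system of a levelwise finite locally free system are finite locally free
over `O_X / J^(n+1) O_X`.** -/
theorem isFinLocFreeMod_toSys (h𝔐 : LefX.LevelwiseFinLocFree 𝔐) (n : ℕ) :
    Formal2.IsFinLocFreeMod J (n + 1) ((toSys 𝔐).obj (op n)) :=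
  isFinLocFreeMod_push h (n + 1) (h𝔐 n)

end Groth.Agent.Sga2lef.H96.LevelFree
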