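import Groth.Agent.FormalB.ModPow
import Groth.Agent.FormalB.HMod
import Groth.Agent.Sga2lef.H96.GrTower

/-!
# Multiplication operators of a formal system

`G` a formal system for `J`. For `e` with `e J^(n+1) ⊆ J^(m+1)` (`MulInto J n m e`) and `n ≤ m`, multiplication by
`e` gives `mu : G_n ⟶ G_m`. `KS G n` is the kernel of `G_n → G_(n-1)` (`KS G 0 = G_0`), `ki G n` its inclusion,
`kap : KS G n ⟶ KS G (n+1)` multiplication by `e ∈ J`, `kmu : KS G 0 ⟶ KS G n` multiplication by `e ∈ J^n`.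
`tower`: the tower `H^0(G_n), H^0(KS n), H^1(KS n)` of `GrTower`.
-/

set_option autoImplicit false
universe u

open CategoryTheory CategoryTheory.Limits AlgebraicGeometry Opposite

namespace Groth.Agent.Sga2lef.H96.MuOp

open Groth.Agent.FormalB.ModPow Groth.Agent.FormalB.HMod

variable {A : Type u} [CommRing A] {X : Scheme.{u}} [X.Over (Spec (CommRingCat.of A))]
  {J : Ideal A} {G : ℕᵒᵖ ⥤ X.Modules}

/-- Multiplication by `e` maps `J^(n+1)` into `J^(m+1)`. -/
def MulInto (J : Ideal A) (n m : ℕ) (e : A) : Prop := ∀ a ∈ J ^ (n + 1), e * a ∈ J ^ (m + 1)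

theorem mulInto_of_mem_pow {n m k : ℕ} {e : A} (he : e ∈ J ^ k) (h : m ≤ n + k) :
    MulInto J n m e := fun a ha => by
  have h1 : e * a ∈ J ^ (k + (n + 1)) := by
    rw [pow_add]
    exact Ideal.mul_mem_mul he ha
  exact Ideal.pow_le_pow_right (by omega) h1

theorem mulInto_succ {n : ℕ} {e : A} (he : e ∈ J) : MulInto J n (n + 1) e :=
  mulInto_of_mem_pow (k := 1) (by rwa [pow_one]) le_rfl

theorem mulInto_zero {n : ℕ} {e : A} (he : e ∈ J ^ n) : MulInto J 0 n e :=
  mulInto_of_mem_pow he (by omega)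

theorem MulInto.add {n m : ℕ} {e e' : A} (he : MulInto J n m e) (he' : MulInto J n m e') :
    MulInto J n m (e + e') := fun a ha => by
  rw [add_mul]
  exact Ideal.add_mem _ (he a ha) (he' a ha)

theorem MulInto.smul {n m : ℕ} {e : A} (he : MulInto J n m e) (b : A) :
    MulInto J n m (b * e) := fun a ha => by
  rw [mul_assoc]
  exact Ideal.mul_mem_left _ b (he a ha)

theorem MulInto.mul {n m l : ℕ} {e e' : A} (he : MulInto J n m e) (he' : MulInto J m l e') :
    MulInto J n l (e' * e) := fun a ha => by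
  rw [mul_assoc]
  exact he' _ (he a ha)

/-- Transition maps. -/
noncomputable abbrev trm (G : ℕᵒᵖ ⥤ X.Modules) {n m : ℕ} (h : n ≤ m) :
    G.obj (op m) ⟶ G.obj (op n) := G.map (homOfLE h).op

theorem trm_self (G : ℕᵒᵖ ⥤ X.Modules) {n : ℕ} (h : n ≤ n) : trm G h = 𝟙 _ :=
  map_homOfLE_self G h

theorem trm_trm (G : ℕᵒᵖ ⥤ X.Modules) {n m l : ℕ} (h : n ≤ m) (h' : m ≤ l) :
    trm G h' ≫ trm G h = trm G (h.trans h') := (map_homOfLE_comp G h h').symm

section Mu

variable (hG : IsFormal J G)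

include hG in
theorem epi_trm {n m : ℕ} (h : n ≤ m) : Epi (trm G h) := (hG.isModPow h).epi

include hG in
theorem exists_mu {n m : ℕ} (h : n ≤ m) {e : A} (he : MulInto J n m e) :
    ∃ μ : G.obj (op n) ⟶ G.obj (op m), trm G h ≫ μ = Formal.smulMod A _ e := by
  refine (hG.isModPow h).desc _ (fun a ha => ?_)
  rw [← smulMod_mul]
  exact hG.killed m _ (he a ha)

/-- Multiplication by `e` as a map `G_n ⟶ G_m`. -/
noncomputable def mu {n m : ℕ} (h : n ≤ m) {e : A} (he : MulInto J n m e) :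
    G.obj (op n) ⟶ G.obj (op m) := (exists_mu hG h he).choose

theorem trm_mu {n m : ℕ} (h : n ≤ m) {e : A} (he : MulInto J n m e) :
    trm G h ≫ mu hG h he = Formal.smulMod A _ e := (exists_mu hG h he).choose_spec

theorem mu_trm {n m : ℕ} (h : n ≤ m) {e : A} (he : MulInto J n m e) :
    mu hG h he ≫ trm G h = Formal.smulMod A _ e := by
  have := epi_trm hG h
  rw [← cancel_epi (trm G h), ← Category.assoc, trm_mu, smulMod_naturality]

/-- uniqueness. -/
theorem mu_eq {n m : ℕ} (h : n ≤ m) {e : A} (he : MulInto J n m e)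
    (φ : G.obj (op n) ⟶ G.obj (op m)) (hφ : trm G h ≫ φ = Formal.smulMod A _ e) :
    φ = mu hG h he := by
  have := epi_trm hG h
  rw [← cancel_epi (trm G h), hφ, trm_mu]

theorem mu_self {n : ℕ} (h : n ≤ n) {e : A} (he : MulInto J n n e) :
    mu hG h he = Formal.smulMod A _ e := by
  symm
  apply mu_eq
  rw [trm_self, Category.id_comp]

theorem mu_add {n m : ℕ} (h : n ≤ m) {e e' : A} (he : MulInto J n m e) (he' : MulInto J n m e')
    (hee : MulInto J n m (e + e')) : mu hG h hee = mu hG h he + mu hG h he' := by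
  symm
  apply mu_eq
  rw [Preadditive.comp_add, trm_mu, trm_mu, smulMod_add]

theorem mu_smul {n m : ℕ} (h : n ≤ m) {e : A} (b : A) (he : MulInto J n m e)
    (hbe : MulInto J n m (b * e)) : mu hG h hbe = mu hG h he ≫ Formal.smulMod A _ b := by
  symm
  apply mu_eq
  rw [← Category.assoc, trm_mu, smulMod_mul]

theorem mu_smul' {n m : ℕ} (h : n ≤ m) {e : A} (b : A) (he : MulInto J n m e)
    (hbe : MulInto J n m (b * e)) : mu hG h hbe = Formal.smulMod A _ b ≫ mu hG h he := by
  rw [mu_smul hG h b he hbe, smulMod_naturality]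

theorem mu_mu {n m l : ℕ} (h : n ≤ m) (h' : m ≤ l) {e e' : A} (he : MulInto J n m e)
    (he' : MulInto J m l e') (hee : MulInto J n l (e' * e)) :
    mu hG h he ≫ mu hG h' he' = mu hG (h.trans h') hee := by
  apply mu_eq
  rw [← trm_trm G h h', Category.assoc, ← Category.assoc (trm G h), trm_mu, smulMod_naturality,
    ← Category.assoc, trm_mu, smulMod_mul, smulMod_naturality]

/-- naturality. -/
theorem mu_trm_comm {n m n' m' : ℕ} (h : n ≤ m) (h' : n' ≤ m') (hn : n ≤ n') (hm : m ≤ m') {e : A}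
    (he : MulInto J n m e) (he' : MulInto J n' m' e) :
    mu hG h' he' ≫ trm G hm = trm G hn ≫ mu hG h he := by
  have := epi_trm hG h'
  rw [← cancel_epi (trm G h'), ← Category.assoc, trm_mu, ← Category.assoc, trm_trm,
    smulMod_naturality, ← trm_trm G h hm, Category.assoc, trm_mu]

theorem mu_congr {n m : ℕ} (h : n ≤ m) {e e' : A} (hee : e = e') (he : MulInto J n m e)
    (he' : MulInto J n m e') : mu hG h he = mu hG h he' := by subst hee; rfl

/-- operators commute. -/
theorem mu_mu_comm {n m l m' : ℕ} (h : n ≤ m) (h' : m ≤ l) (k : n ≤ m') (k' : m' ≤ l) {e e' : A}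
    (he : MulInto J n m e) (he' : MulInto J m l e') (ge' : MulInto J n m' e')
    (ge : MulInto J m' l e) :
    mu hG h he ≫ mu hG h' he' = mu hG k ge' ≫ mu hG k' ge := by
  rw [mu_mu hG h h' he he' (he.mul he'), mu_mu hG k k' ge' ge (ge'.mul ge)]
  exact mu_congr hG _ (mul_comm _ _) _ _

end Mu

/-! ### The kernels -/

/-- `ker (G_n → G_(n-1))`, and `G_0` for `n = 0`. -/
noncomputable def KS (G : ℕᵒᵖ ⥤ X.Modules) : ℕ → X.Modules
  | 0 => G.obj (op 0)
  | n + 1 => kernel (trm G (Nat.le_succ n))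

/-- The inclusion `KS G n ⟶ G_n`. -/
noncomputable def ki (G : ℕᵒᵖ ⥤ X.Modules) : ∀ n, KS G n ⟶ G.obj (op n)
  | 0 => 𝟙 _
  | n + 1 => kernel.ι (trm G (Nat.le_succ n))

instance mono_ki (G : ℕᵒᵖ ⥤ X.Modules) (n : ℕ) : Mono (ki G n) := by
  cases n with
  | zero => exact (inferInstance : Mono (𝟙 (G.obj (op 0))))
  | succ n => exact (inferInstance : Mono (kernel.ι (trm G (Nat.le_succ n))))

theorem ki_trm (G : ℕᵒᵖ ⥤ X.Modules) (n : ℕ) : ki G (n + 1) ≫ trm G (Nat.le_succ n) = 0 :=
  kernel.condition _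

/-- Lifting to the kernel. -/
theorem exists_kLift (G : ℕᵒᵖ ⥤ X.Modules) (n : ℕ) {Z : X.Modules} (φ : Z ⟶ G.obj (op (n + 1)))
    (hφ : φ ≫ trm G (Nat.le_succ n) = 0) : ∃ ψ : Z ⟶ KS G (n + 1), ψ ≫ ki G (n + 1) = φ :=
  ⟨kernel.lift _ φ hφ, kernel.lift_ι _ _ _⟩

section Ker

variable (hG : IsFormal J G)

include hG in
theorem sc_shortExact (n : ℕ) : (ShortComplex.mk (ki G (n + 1)) (trm G (Nat.le_succ n))
    (ki_trm G n)).ShortExact := by
  have hepi := epi_trm hG (Nat.le_succ n)
  refine { exact := ?_, mono_f := mono_ki G (n + 1), epi_g := hepi }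
  exact ShortComplex.exact_of_f_is_kernel _ (kernelIsKernel (trm G (Nat.le_succ n)))

include hG in
/-- The kernels are killed by `J`. -/
theorem killed_KS (n : ℕ) : Formal.KilledBy J (KS G n) := by
  cases n with
  | zero =>
    have h := hG.killed 0
    rw [zero_add, pow_one] at h
    exact h
  | succ n =>
    intro a ha
    rw [← cancel_mono (ki G (n + 1)), smulMod_naturality,
      ← trm_mu hG (Nat.le_succ n) (mulInto_succ ha), ← Category.assoc, ki_trm, zero_comp,
      zero_comp]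

include hG in
theorem exists_kap (n : ℕ) {e : A} (he : e ∈ J) : ∃ κ : KS G n ⟶ KS G (n + 1),
    κ ≫ ki G (n + 1) = ki G n ≫ mu hG (Nat.le_succ n) (mulInto_succ he) := by
  apply exists_kLift
  rw [Category.assoc, mu_trm, ← smulMod_naturality, killed_KS hG n e he, zero_comp]

/-- Multiplication by `e ∈ J` on the kernels. -/
noncomputable def kap (n : ℕ) {e : A} (he : e ∈ J) : KS G n ⟶ KS G (n + 1) :=
  (exists_kap hG n he).choose

theorem kap_ki (n : ℕ) {e : A} (he : e ∈ J) : kap hG n he ≫ ki G (n + 1) =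
    ki G n ≫ mu hG (Nat.le_succ n) (mulInto_succ he) := (exists_kap hG n he).choose_spec

theorem kap_comm (n : ℕ) {e e' : A} (he : e ∈ J) (he' : e' ∈ J) :
    kap hG n he ≫ kap hG (n + 1) he' = kap hG n he' ≫ kap hG (n + 1) he := by
  rw [← cancel_mono (ki G (n + 1 + 1)), Category.assoc, Category.assoc, kap_ki, kap_ki,
    ← Category.assoc, kap_ki, ← Category.assoc, kap_ki, Category.assoc, Category.assoc]
  congr 1
  exact mu_mu_comm hG _ _ _ _ _ _ _ _

theorem kap_add (n : ℕ) {e e' : A} (he : e ∈ J) (he' : e' ∈ J) (hee : e + e' ∈ J) :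
    kap hG n hee = kap hG n he + kap hG n he' := by
  rw [← cancel_mono (ki G (n + 1)), Preadditive.add_comp, kap_ki, kap_ki, kap_ki,
    mu_add hG _ (mulInto_succ he) (mulInto_succ he'), Preadditive.comp_add]

theorem kap_smul (n : ℕ) {e : A} (b : A) (he : e ∈ J) (hbe : b * e ∈ J) :
    kap hG n hbe = Formal.smulMod A _ b ≫ kap hG n he := by
  rw [← cancel_mono (ki G (n + 1)), kap_ki, Category.assoc, kap_ki,
    mu_smul' hG _ b (mulInto_succ he), ← Category.assoc, ← Category.assoc, smulMod_naturality]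

include hG in
theorem exists_kmu (n : ℕ) {e : A} (he : e ∈ J ^ n) : ∃ κ : KS G 0 ⟶ KS G n,
    κ ≫ ki G n = ki G 0 ≫ mu hG (Nat.zero_le n) (mulInto_zero he) := by
  cases n with
  | zero => exact ⟨Formal.smulMod A _ e, by rw [mu_self, smulMod_naturality]⟩
  | succ n =>
    apply exists_kLift
    rw [Category.assoc]
    have h1 : ∀ e ∈ J ^ (n + 1), ∃ he : MulInto J 0 (n + 1) e,
        ki G 0 ≫ mu hG (Nat.zero_le (n + 1)) he ≫ trm G (Nat.le_succ n) = 0 := by
      intro e he
      rw [pow_succ] at he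
      refine Submodule.mul_induction_on he (fun b hb a ha => ?_) (fun x y hx hy => ?_)
      · have h3 : b * a ∈ J ^ (n + 1) := by
          rw [pow_succ]
          exact Ideal.mul_mem_mul hb ha
        have h2 : MulInto J 0 n (a * b) := (mulInto_zero hb).smul a
        have h2' : MulInto J 0 n (b * a) := by rwa [mul_comm]
        refine ⟨mulInto_zero h3, ?_⟩
        rw [mu_trm_comm hG (Nat.zero_le n) (Nat.zero_le (n + 1)) le_rfl (Nat.le_succ n) h2' _,
          trm_self, Category.id_comp,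
          mu_congr hG (Nat.zero_le n) (mul_comm b a) _ h2, mu_smul' hG _ a (mulInto_zero hb),
          ← Category.assoc, ← smulMod_naturality, killed_KS hG 0 a ha, zero_comp, zero_comp]
      · obtain ⟨hx1, hx2⟩ := hx
        obtain ⟨hy1, hy2⟩ := hy
        refine ⟨hx1.add hy1, ?_⟩
        rw [mu_add hG _ hx1 hy1, Preadditive.add_comp, Preadditive.comp_add, hx2, hy2, add_zero]
    obtain ⟨h2, h3⟩ := h1 e he
    exact h3

/-- Multiplication by `e ∈ J^n` as a map `G_0 ⟶ ker (G_n → G_(n-1))`. -/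
noncomputable def kmu (n : ℕ) {e : A} (he : e ∈ J ^ n) : KS G 0 ⟶ KS G n :=
  (exists_kmu hG n he).choose

theorem kmu_ki (n : ℕ) {e : A} (he : e ∈ J ^ n) : kmu hG n he ≫ ki G n =
    ki G 0 ≫ mu hG (Nat.zero_le n) (mulInto_zero he) := (exists_kmu hG n he).choose_spec

theorem kmu_add (n : ℕ) {e e' : A} (he : e ∈ J ^ n) (he' : e' ∈ J ^ n) (hee : e + e' ∈ J ^ n) :
    kmu hG n hee = kmu hG n he + kmu hG n he' := by
  rw [← cancel_mono (ki G n), Preadditive.add_comp, kmu_ki, kmu_ki, kmu_ki,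
    mu_add hG _ (mulInto_zero he) (mulInto_zero he'), Preadditive.comp_add]

theorem kmu_smul (n : ℕ) {e : A} (b : A) (he : e ∈ J ^ n) (hbe : b * e ∈ J ^ n) :
    kmu hG n hbe = Formal.smulMod A _ b ≫ kmu hG n he := by
  rw [← cancel_mono (ki G n), kmu_ki, Category.assoc, kmu_ki,
    mu_smul' hG _ b (mulInto_zero he), ← Category.assoc, ← Category.assoc, smulMod_naturality]

theorem kmu_zero (n : ℕ) : kmu hG n (Ideal.zero_mem (J ^ n)) = 0 := by
  have h := kmu_smul hG n (0 : A) (Ideal.zero_mem (J ^ n)) (by rw [mul_zero]; exact Ideal.zero_mem _)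
  rw [smulMod_zero, zero_comp] at h
  have h2 : ∀ (e e' : A) (hee : e = e') (he : e ∈ J ^ n) (he' : e' ∈ J ^ n),
      kmu hG n he = kmu hG n he' := by rintro e _ rfl _ _; rfl
  rw [← h]
  exact h2 _ _ (zero_mul 0).symm _ _

/-- composition. -/
theorem kmu_kap (n : ℕ) {e a : A} (he : e ∈ J ^ n) (ha : a ∈ J) (hae : a * e ∈ J ^ (n + 1)) :
    kmu hG n he ≫ kap hG n ha = kmu hG (n + 1) hae := by
  rw [← cancel_mono (ki G (n + 1)), Category.assoc, kap_ki, ← Category.assoc, kmu_ki,
    Category.assoc, kmu_ki,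
    mu_mu hG (Nat.zero_le n) (Nat.le_succ n) (mulInto_zero he) (mulInto_succ ha)
      (mulInto_zero hae)]

end Ker

/-! ### The tower on cohomology -/

section Tow

variable (hG : IsFormal J G) {ι : Type} (a : ι → A) (ha : ∀ j, a j ∈ J)

/-- The tower `H^0(G_n), H^0(KS n), H^1(KS n)`. -/
noncomputable def tower
    (hg0 : ∀ n, (⊤ : Submodule A ((HM A X 0).obj (KS G (n + 1)))) ≤
      ⨆ j, LinearMap.range ((HM A X 0).map (kap hG n (ha j))).hom)
    (hg1 : ∀ n, (⊤ : Submodule A ((HM A X 1).obj (KS G (n + 1)))) ≤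
      ⨆ j, LinearMap.range ((HM A X 1).map (kap hG n (ha j))).hom) :
    GrTower.Tower A J a (fun n => (HM A X 0).obj (G.obj (op n)))
      (fun n => (HM A X 0).obj (KS G n)) (fun n => (HM A X 1).obj (KS G n)) where
  t n := ((HM A X 0).map (trm G (Nat.le_succ n))).hom
  i n := ((HM A X 0).map (ki G n)).hom
  δ n := (dm A (ki G (n + 1)) (trm G (Nat.le_succ n)) (ki_trm G n) (sc_shortExact hG n) 0).hom
  θ j n := ((HM A X 0).map (mu hG (Nat.le_succ n) (mulInto_succ (ha j)))).hom
  κ j n := ((HM A X 0).map (kap hG n (ha j))).hom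
  η j n := ((HM A X 1).map (kap hG n (ha j))).hom
  i_inj n := map_zero_injective A (ki G n)
  i_zero_surj x := ⟨x, by
    change (HM A X 0).map (𝟙 (G.obj (op 0))) x = x
    rw [CategoryTheory.Functor.map_id]
    rfl⟩
  ker_t n x hx := exact_N A _ _ _ (sc_shortExact hG n) 0 x hx
  t_i n k := by
    rw [← LinearMap.comp_apply, ← ModuleCat.hom_comp, ← Functor.map_comp, ki_trm,
      Functor.map_zero]
    rfl
  ker_δ n x hx := exact_P A _ _ _ (sc_shortExact hG n) 0 x hx
  δ_t n y := dm_map A _ _ _ (sc_shortExact hG n) 0 y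
  θ_t j n x := by
    rw [← LinearMap.comp_apply, ← ModuleCat.hom_comp, ← Functor.map_comp, trm_mu, ← map_smulMod]
  t_θ j n x := by
    rw [← LinearMap.comp_apply, ← ModuleCat.hom_comp, ← Functor.map_comp, mu_trm, ← map_smulMod]
  θ_i j n k := by
    rw [← LinearMap.comp_apply, ← ModuleCat.hom_comp, ← Functor.map_comp, ← kap_ki,
      Functor.map_comp]
    rfl
  δ_θ j n x := by
    have := dm_naturality A _ _ _ _ _ _ (sc_shortExact hG n) (sc_shortExact hG (n + 1))
      (kap hG (n + 1) (ha j)) (mu hG (Nat.le_succ (n + 1)) (mulInto_succ (ha j)))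
      (mu hG (Nat.le_succ n) (mulInto_succ (ha j))) (kap_ki hG (n + 1) (ha j))
      (mu_trm_comm hG _ _ _ _ _ _) 0
    exact congr($(this) x).symm
  κ_comm j j' n k := by
    have := congr((HM A X 0).map $(kap_comm hG n (ha j') (ha j)) k)
    rw [Functor.map_comp, Functor.map_comp] at this
    exact this
  η_comm j j' n k := by
    have := congr((HM A X 1).map $(kap_comm hG n (ha j') (ha j)) k)
    rw [Functor.map_comp, Functor.map_comp] at this
    exact this
  killJ n b hb x := by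
    rw [← map_smulMod, hG.killed n b hb, Functor.map_zero]
    rfl
  κ_gen := hg0
  η_gen := hg1

end Tow

end Groth.Agent.Sga2lef.H96.MuOp
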